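import Cfsg.Agent.H803.Realize
import Cfsg.Agent.Lib.Cores
import Mathlib.GroupTheory.GroupAction.ConjAct

/-!
# From a group without proper strongly closed subgroups to a simple group (helper777)
-/

set_option autoImplicit false

namespace Cfsg.Agent.H777.Real

open Cfsg Cfsg.Agent.Lib.Cores

universe u v

/-- `φ` is induced by conjugation in `G` (through `ι`). -/
def Fus {P : Type u} {G : Type v} [Group P] [Group G] (ι : P →* G) {Q : Subgroup P} (φ : Q →* P) : Prop :=
  ∃ g : G, ∀ x : Q, ι (φ x) = g * ι x * g⁻¹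

variable {p : ℕ} [Fact p.Prime]

/-- A normal subgroup of order divisible by `p` meets a Sylow `p`-subgroup nontrivially. -/
theorem exists_mem_sylow {G : Type v} [Group G] [Finite G] (T : Sylow p G) {K : Subgroup G} [K.Normal]
    (hK : ¬ (Nat.card K).Coprime p) : ∃ x ∈ K, x ∈ (T : Subgroup G) ∧ x ≠ 1 := by
  have hp : p.Prime := Fact.out
  have hd : p ∣ Nat.card K := by
    by_contra h
    exact hK ((Nat.Prime.coprime_iff_not_dvd hp).2 h).symm
  obtain ⟨y, hy⟩ := exists_prime_orderOf_dvd_card' p hd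
  have hyp : IsPGroup p (Subgroup.zpowers (y : G)) := by
    apply IsPGroup.of_card (n := 1)
    rw [Nat.card_zpowers, Subgroup.orderOf_coe, hy, pow_one]
  obtain ⟨Q, hQ⟩ := hyp.exists_le_sylow
  obtain ⟨g, hg⟩ := MulAction.exists_smul_eq G Q T
  refine ⟨g * y * g⁻¹, Subgroup.Normal.conj_mem inferInstance _ y.2 g, ?_, ?_⟩
  · rw [← hg, Sylow.coe_subgroup_smul]
    exact ⟨y, hQ (Subgroup.mem_zpowers _), rfl⟩
  · intro h
    have h2 : (y : G) = 1 := by
      calc (y : G) = g⁻¹ * (g * y * g⁻¹) * g := by group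
        _ = 1 := by rw [h]; group
    have h3 : orderOf (y : G) = 1 := by rw [h2, orderOf_one]
    rw [Subgroup.orderOf_coe, hy] at h3
    exact hp.one_lt.ne' h3

/-- A nontrivial normal subgroup with a minimal order. -/
theorem exists_min {G : Type v} [Group G] [Finite G] (H : Subgroup G) (hH : H.Normal) (h1 : H ≠ ⊥) :
    ∃ K : Subgroup G, K.Normal ∧ K ≠ ⊥ ∧ K ≤ H ∧ ∀ L : Subgroup G, L.Normal → L ≠ ⊥ → L ≤ K → L = K := by
  obtain ⟨K, hK, hmin⟩ := Set.exists_min_image {K : Subgroup G | K.Normal ∧ K ≠ ⊥ ∧ K ≤ H} (fun K => Nat.card K)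
    (Set.toFinite _) ⟨H, hH, h1, le_rfl⟩
  refine ⟨K, hK.1, hK.2.1, hK.2.2, fun L hL hL1 hLK => ?_⟩
  have h2 := hmin L ⟨hL, hL1, hLK.trans hK.2.2⟩
  exact Subgroup.eq_of_le_of_card_ge hLK h2

theorem exists_simple {P : Type u} [Group P] [Finite P] (hP : IsPGroup p P)
    {G : Type v} [Group G] [Finite G] (ι : P →* G) (hι : Function.Injective ι) (T : Sylow p G)
    (hT : (T : Subgroup G) = ι.range)
    (hsc : ∀ A : Subgroup P, (∀ a ∈ A, ∀ b : P, (∃ g : G, ι b = g * ι a * g⁻¹) → b ∈ A) → A = ⊥ ∨ A = ⊤)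
    (z : P) (hz : z ≠ 1) (hzmin : ∀ B : Subgroup P, B.Normal → B ≠ ⊥ → z ∈ B) :
    ∃ (K : Type v) (_ : Group K) (_ : Finite K) (κ : P →* K), IsSimpleGroup K ∧ Function.Injective κ ∧
      (∃ T' : Sylow p K, (T' : Subgroup K) = κ.range) ∧
      ∀ (Q : Subgroup P) (φ : Q →* P), Fus κ φ → Fus ι φ := by
  have hp : p.Prime := Fact.out
  set N₀ := pPrimeCore p G with hN₀
  have hN₀c : (Nat.card N₀).Coprime p := pPrimeCore_coprime p
  set ι₁ : P →* G ⧸ N₀ := (QuotientGroup.mk' N₀).comp ι with hι₁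
  have hrp : IsPGroup p ι.range := hP.of_surjective ι.rangeRestrict ι.rangeRestrict_surjective
  have hinj₁ : Function.Injective ι₁ := by
    rw [injective_iff_map_eq_one]
    intro x hx
    have h1 : ι x ∈ N₀ := (QuotientGroup.eq_one_iff _).1 hx
    have h2 := H803.eq_one_of_mem_of_coprime hrp hN₀c (⟨x, rfl⟩ : ι x ∈ ι.range) h1
    exact (injective_iff_map_eq_one ι).1 hι x h2
  -- fusion in the quotient
  have hfus : ∀ (Q : Subgroup P) (φ : Q →* P), Fus ι₁ φ → Fus ι φ := by
    rintro Q φ ⟨g', hg⟩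
    obtain ⟨g, rfl⟩ := QuotientGroup.mk_surjective g'
    obtain ⟨k, hk, hke⟩ := H803.exists_conj_of_congr (hP.to_subgroup Q)
      ((MulAut.conj g).toMonoidHom.comp (ι.comp Q.subtype)) (ι.comp φ) N₀ hN₀c (fun x => by
        rw [← QuotientGroup.eq]
        exact (hg x).symm)
    refine ⟨k * g, fun x => ?_⟩
    have h1 := hke x
    have h2 : ι (φ x) = k * (g * ι x * g⁻¹) * k⁻¹ := h1
    rw [h2]
    group
  have hcard : Nat.card P = p ^ (Nat.card G).factorization p := by
    rw [Nat.card_congr (MonoidHom.ofInjective hι).toEquiv, ← hT]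
    exact T.card_eq_multiplicity
  have hfac : (Nat.card G).factorization p = (Nat.card (G ⧸ N₀)).factorization p := by
    rw [Subgroup.card_eq_card_quotient_mul_card_subgroup N₀,
      Nat.factorization_mul Nat.card_pos.ne' Nat.card_pos.ne']
    have h1 : (Nat.card N₀).factorization p = 0 :=
      Nat.factorization_eq_zero_of_not_dvd ((Nat.Prime.coprime_iff_not_dvd hp).1 hN₀c.symm)
    simp [h1]
  let T₁ : Sylow p (G ⧸ N₀) := Sylow.ofCard ι₁.range (by
    rw [← Nat.card_congr (MonoidHom.ofInjective hinj₁).toEquiv, hcard, hfac])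
  have hT₁ : (T₁ : Subgroup (G ⧸ N₀)) = ι₁.range := rfl
  have hcore : pPrimeCore p (G ⧸ N₀) = ⊥ := pPrimeCore_quotient_pPrimeCore p
  -- a minimal normal subgroup
  have htop : (⊤ : Subgroup (G ⧸ N₀)) ≠ ⊥ := by
    intro h
    have h2 : ι₁ z ∈ (⊥ : Subgroup (G ⧸ N₀)) := by rw [← h]; exact Subgroup.mem_top _
    exact hz (hinj₁ (by rw [Subgroup.mem_bot.1 h2, map_one]))
  obtain ⟨M, hMn, hM1, -, hMmin⟩ := exists_min (⊤ : Subgroup (G ⧸ N₀)) inferInstance htop
  have hMp : ¬ (Nat.card M).Coprime p := by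
    intro h
    have h2 := le_pPrimeCore hMn h
    rw [hcore] at h2
    exact hM1 (le_bot_iff.1 h2)
  have hrM : ι₁.range ≤ M := by
    rcases hsc (M.comap ι₁) (by
      rintro a ha b ⟨g, hg⟩
      rw [Subgroup.mem_comap] at ha ⊢
      have h2 : ι₁ b = (QuotientGroup.mk' N₀ g) * ι₁ a * (QuotientGroup.mk' N₀ g)⁻¹ := by
        rw [hι₁, MonoidHom.comp_apply, MonoidHom.comp_apply, hg, map_mul, map_mul, map_inv]
      rw [h2]
      exact hMn.conj_mem _ ha _) with h | h
    · exfalso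
      obtain ⟨x, hxM, hxT, hx1⟩ := exists_mem_sylow T₁ hMp
      rw [hT₁] at hxT
      obtain ⟨y, rfl⟩ := hxT
      have h2 : y ∈ M.comap ι₁ := hxM
      rw [h, Subgroup.mem_bot] at h2
      exact hx1 (by rw [h2, map_one])
    · rintro _ ⟨x, rfl⟩
      have h2 : x ∈ M.comap ι₁ := by rw [h]; exact Subgroup.mem_top _
      exact h2
  set κ : P →* M := ι₁.codRestrict M (fun x => hrM ⟨x, rfl⟩) with hκ
  have hκi : Function.Injective κ := fun a b hab => hinj₁ (congrArg Subtype.val hab)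
  have hT₁M : (T₁ : Subgroup (G ⧸ N₀)) ≤ M := hrM
  have hTM : ((T₁.subtype hT₁M : Sylow p M) : Subgroup M) = κ.range := by
    ext x
    constructor
    · intro hx
      have h2 : (x : G ⧸ N₀) ∈ ι₁.range := hx
      obtain ⟨y, hy⟩ := h2
      exact ⟨y, Subtype.ext hy⟩
    · rintro ⟨y, rfl⟩
      exact ⟨y, rfl⟩
  have hMcore : pPrimeCore p M = ⊥ := by
    have h := map_subtype_pPrimeCore p hMn
    rw [hcore, inf_bot_eq] at h
    exact (Subgroup.map_eq_bot_iff_of_injective _ M.subtype_injective).1 h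
  -- every nontrivial normal subgroup of `M` contains `κ z`
  have hzK : ∀ K : Subgroup M, K.Normal → K ≠ ⊥ → κ z ∈ K := by
    intro K hKn hK1
    have hKp : ¬ (Nat.card K).Coprime p := by
      intro h
      have h2 := le_pPrimeCore hKn h
      rw [hMcore] at h2
      exact hK1 (le_bot_iff.1 h2)
    obtain ⟨x, hxK, hxT, hx1⟩ := exists_mem_sylow (T₁.subtype hT₁M) hKp
    rw [hTM] at hxT
    obtain ⟨y, rfl⟩ := hxT
    refine hzmin (K.comap κ) inferInstance ?_
    intro h
    have h2 : y ∈ K.comap κ := hxK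
    rw [h, Subgroup.mem_bot] at h2
    exact hx1 (by rw [h2, map_one])
  have hκz : κ z ≠ 1 := fun h => hz (hκi (by rw [h, map_one]))
  have hsimple : IsSimpleGroup M := by
    have hnt : Nontrivial M := ⟨κ z, 1, hκz⟩
    refine ⟨fun H hHn => ?_⟩
    by_cases hH1 : H = ⊥
    · exact Or.inl hH1
    right
    obtain ⟨K, hKn, hK1, hKH, hKmin⟩ := exists_min H hHn hH1
    have hinv : ∀ g : G ⧸ N₀, K ≤ K.map (MulAut.conjNormal g : MulAut M).toMonoidHom := by
      intro g
      have hKg : (K.map (MulAut.conjNormal g : MulAut M).toMonoidHom).Normal :=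
        hKn.map _ (MulAut.conjNormal g : MulAut M).surjective
      have hKg1 : K.map (MulAut.conjNormal g : MulAut M).toMonoidHom ≠ ⊥ := by
        intro h
        exact hK1 ((Subgroup.map_eq_bot_iff_of_injective _ (MulAut.conjNormal g : MulAut M).injective).1 h)
      have h2 := hKmin (K ⊓ K.map (MulAut.conjNormal g : MulAut M).toMonoidHom) inferInstance (by
        intro h
        have h3 : κ z ∈ K ⊓ K.map (MulAut.conjNormal g : MulAut M).toMonoidHom :=
          ⟨hzK K hKn hK1, hzK _ hKg hKg1⟩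
        rw [h, Subgroup.mem_bot] at h3
        exact hκz h3) inf_le_left
      exact inf_eq_left.1 h2
    have hKG : (K.map M.subtype).Normal := by
      refine ⟨?_⟩
      rintro _ ⟨x, hx, rfl⟩ g
      have h2 := hinv g⁻¹ hx
      obtain ⟨y, hy, hyx⟩ := h2
      have h3 : (x : G ⧸ N₀) = g⁻¹ * y * g⁻¹⁻¹ := by
        rw [← hyx]
        rfl
      refine ⟨y, hy, ?_⟩
      show (y : G ⧸ N₀) = g * x * g⁻¹
      rw [h3]
      group
    have h4 := hMmin (K.map M.subtype) hKG (by
      intro h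
      exact hK1 ((Subgroup.map_eq_bot_iff_of_injective _ M.subtype_injective).1 h))
      (Subgroup.map_subtype_le K)
    have h5 : K = ⊤ := by
      apply Subgroup.map_injective M.subtype_injective
      rw [h4, ← MonoidHom.range_eq_map, Subgroup.range_subtype]
    exact top_le_iff.1 (h5 ▸ hKH)
  refine ⟨M, inferInstance, inferInstance, κ, hsimple, hκi, ⟨T₁.subtype hT₁M, hTM⟩, ?_⟩
  rintro Q φ ⟨g, hg⟩
  refine hfus Q φ ⟨(g : G ⧸ N₀), fun x => ?_⟩
  exact congrArg Subtype.val (hg x)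

end Cfsg.Agent.H777.Real
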